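import Mathlib
import Cfsg.Agent.H622.Star
import Cfsg.Agent.S0886
set_option linter.all false

/-!
# Cyclic quotients of fully ramified groups

If `P` is fully ramified over `(N, θ)`, `W` is normal in `P` and `P ⧸ W` is cyclic, then the
number of characters of `W` over `θ` is `|P : W|`.
-/

set_option autoImplicit false
set_option linter.style.haveILetI false
open Cfsg

namespace Cfsg.Agent.H622.Cyc

open Cfsg.Agent.Characters.Core Subgroup Cfsg.Agent.H622.FR Cfsg.Agent.H622.Grp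
  Cfsg.Agent.H622.Star

universe u

variable {G : Type u} [Group G] {N : Subgroup G} {θ : N → ℂ}

/-- An invariant character extends to an overgroup with cyclic quotient. -/
theorem card_eq_relIndex_of_cyclic [Finite G] [N.Normal] (hθ : IsIrrCharacter N θ) (hinv : Inv θ)
    {P W : Subgroup G} (hNP : N ≤ P) (hNW : N ≤ W) (hWP : W ≤ P)
    (hn : P ≤ normalizer (W : Set G)) {XP : P → ℂ} (hXP : FullRam (inclusion hNP) θ XP)
    {C : Type*} [Group C] [IsCyclic C] (c : P →* C) (hc : ∀ x : P, c x = 1 ↔ (x : G) ∈ W) :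
    Nat.card (Ov hNW θ) = W.relIndex P := by
  letI := act hinv hNW
  letI : MulAction P (Ov hNW θ) := MulAction.compHom _ (inclusion hn)
  have hsm : ∀ (p : P) (ω : Ov hNW θ), p • ω = (inclusion hn p) • ω := fun p ω => rfl
  have : MulAction.IsPretransitive P (Ov hNW θ) := by
    refine ⟨fun ψ φ => ?_⟩
    obtain ⟨x, hxP, hx⟩ := exists_conj_le hθ hNP hNW hWP hn hXP ψ.2 φ.2
    refine ⟨⟨x⁻¹, inv_mem hxP⟩, ?_⟩
    apply Subtype.ext
    funext w
    have hw : x * (w : G) * x⁻¹ ∈ W := (mem_normalizer_iff.1 (hn hxP) (w : G)).1 w.2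
    rw [hsm, smul_coe hinv _ _ _ w ⟨x * (w : G) * x⁻¹, hw⟩ (by simp)]
    exact hx w _ rfl
  obtain ⟨v, hv0, hv, hJ⟩ := exists_card_ov hθ hNP hNW hWP hn hXP
  obtain ⟨x, hx0, hx⟩ := hXP.exists_deg hθ
  obtain ⟨φ, hφ⟩ := exists_overMul (j := inclusion hNW) (inclusion hWP) hθ (X := XP)
    hXP.toOverMul
  let ω : Ov hNW θ := ⟨φ, hφ⟩
  let T : Subgroup P := MulAction.stabilizer P ω
  have hTi : T.index = Nat.card (Ov hNW θ) := MulAction.index_stabilizer_of_transitive ..
  have hWT : W.subgroupOf P ≤ T := by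
    intro w hw
    rw [MulAction.mem_stabilizer_iff, hsm]
    apply Subtype.ext
    funext k
    have hw' : (w : G) ∈ W := hw
    have hk : (w : G)⁻¹ * k * w ∈ W := W.mul_mem (W.mul_mem (W.inv_mem hw') k.2) hw'
    rw [smul_coe _ _ _ _ k ⟨_, hk⟩ rfl]
    have h1 := isIrr_isClassFunction ω.2.irr k (⟨(w : G), hw'⟩⁻¹ : W)
    rw [← h1]
    refine congrArg ω.1 (Subtype.ext ?_)
    simp
  -- the normal subgroup of `T`
  let V : Subgroup T := (W.subgroupOf P).subgroupOf T
  let cT : T →* C := c.comp T.subtype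
  have hker : cT.ker = V := by
    ext t
    rw [MonoidHom.mem_ker]
    exact hc (t : P)
  have hVn : V.Normal := hker ▸ cT.normal_ker
  have hcyc : IsCyclic (T ⧸ V) := by
    have h1 : IsCyclic (T ⧸ cT.ker) :=
      isCyclic_of_injective (QuotientGroup.kerLift cT) (QuotientGroup.kerLift_injective cT)
    exact isCyclic_of_surjective (QuotientGroup.quotientMulEquivOfEq hker)
      (QuotientGroup.quotientMulEquivOfEq hker).surjective
  let g : V →* W :=
    { toFun := fun w => ⟨(((w : T) : P) : G), w.2⟩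
      map_one' := rfl
      map_mul' := fun _ _ => rfl }
  have hg : Function.Surjective g := by
    intro w
    refine ⟨⟨⟨⟨(w : G), hWP w.2⟩, hWT w.2⟩, w.2⟩, rfl⟩
  have hϑ : IsIrrCharacter V (ω.1 ∘ g) := isIrr_comp g hg ω.2.irr
  obtain ⟨χ, hχ, hχV⟩ := S0886.result V hcyc (ω.1 ∘ g) hϑ (by
    intro t w
    have h1 : (((t : T) : P)⁻¹ : P) • ω = ω := by
      have := T.inv_mem t.2
      exact this
    have h2 := congrArg (fun a : Ov hNW θ => a.1 (g w)) h1
    simp only [hsm] at h2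
    rw [smul_coe _ _ _ _ (g w) (g ⟨t * w * t⁻¹, hVn.conj_mem w w.2 t⟩) (by
      simp [g])] at h2
    exact h2)
  -- the relative degrees
  have hNT : ∀ n : N, inclusion hNP n ∈ T := fun n => hWT (hNW n.2)
  let jT : N →* T := (inclusion hNP).codRestrict T hNT
  have hNV : ∀ n : N, jT n ∈ V := fun n => hNW n.2
  have hχ1 : χ 1 = v * θ 1 := by
    have := hχV 1
    rw [← hv _ ω.2]
    exact this
  have hχo : OverMul jT θ χ := by
    refine ⟨hχ, fun n => ?_⟩
    have h1 : χ (jT n) = ω.1 (inclusion hNW n) := hχV ⟨jT n, hNV n⟩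
    have h2 : χ 1 = ω.1 1 := hχV 1
    rw [h1, h2]
    exact ω.2.lies n
  have hjT : T.subtype.comp jT = inclusion hNP := rfl
  have hinj : Function.Injective jT := by
    intro a b hab
    have := congrArg T.subtype hab
    exact inclusion_injective hNP this
  obtain ⟨m, hm⟩ := exists_mult T.subtype T.subtype_injective hinj hθ (X := XP) (hjT ▸ hXP) hχo hx hχ1
  have hsq := hXP.sq_eq hθ hx
  have c1 : Nat.card N * N.relIndex W = Nat.card W := card_mul_relIndex hNW
  have c2 : Nat.card W * W.relIndex P = Nat.card P := card_mul_relIndex hWP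
  have c3 : Nat.card T * T.index = Nat.card P := T.card_mul_index
  have c4 : (W.subgroupOf P).relIndex T * T.index = W.relIndex P := relIndex_mul_index hWT
  set J := Nat.card (Ov hNW θ) with hJd
  set r := (W.subgroupOf P).relIndex T with hr
  set nN := Nat.card N with hnN
  have hnN0 : 0 < nN := Nat.card_pos
  have hJ0 : 0 < J := by
    rw [← hTi]
    exact Nat.pos_of_ne_zero T.index_ne_zero_of_finite
  have hr0 : 0 < r := by
    have := index_ne_zero_of_finite (H := (W.subgroupOf P).subgroupOf T)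
    exact Nat.pos_of_ne_zero this
  have e1 : Nat.card T = nN * (J * v ^ 2) * r := by
    apply Nat.eq_of_mul_eq_mul_right hJ0
    rw [← hTi, c3, ← c2, ← c1, ← c4, hTi, ← hJ]; ring
  have e2 : x ^ 2 = J * v ^ 2 * (r * J) := by
    apply Nat.eq_of_mul_eq_mul_right hnN0
    rw [hsq, ← c2, ← c1, ← c4, hTi, ← hJ]; ring
  rw [e1] at hm
  have e3 : m * (r * J * v) = x := by
    apply Nat.eq_of_mul_eq_mul_right (Nat.mul_pos hv0 hnN0)
    calc m * (r * J * v) * (v * nN) = m * (nN * (J * v ^ 2) * r) := by ring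
      _ = _ := by rw [hm]; ring
  have e4 : m ^ 2 * r = 1 := by
    have hpos : 0 < J * v ^ 2 * (r * J) := by positivity
    apply Nat.eq_of_mul_eq_mul_right hpos
    rw [one_mul]
    conv_rhs => rw [← e2, ← e3]
    ring
  have e5 : r = 1 := Nat.eq_one_of_dvd_one (Dvd.intro_left _ e4)
  rw [← c4, e5, one_mul, hTi]

/-- The hypothesis of full ramification. -/
theorem fullRam_of {H : Type u} [Group H] [Finite H] (Z : Subgroup H) {χ : H → ℂ}
    (hχ : IsIrrCharacter H χ) {θ : Z → ℂ} {e : ℕ} (he : e ^ 2 = Z.index)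
    (h : ∀ z : Z, χ z = (e : ℂ) * θ z) : FullRam Z.subtype θ χ := by
  have h1 : χ 1 = (e : ℂ) * θ 1 := h 1
  refine ⟨⟨hχ, fun a => ?_⟩, ?_⟩
  · have h2 : χ (Z.subtype a) = (e : ℂ) * θ a := h a
    rw [h1, h2]; ring
  · have h3 : (Nat.card H : ℂ) = (e : ℂ) ^ 2 * Nat.card Z := by
      rw [← Z.card_mul_index, ← he]
      push_cast
      ring
    rw [h1, h3]; ring

/-- Cyclic Sylow subgroups of quotients of fully ramified groups have complements. -/
theorem exists_complement {H : Type u} [Group H] [Finite H] (Z : Subgroup H) [Z.Normal]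
    {θ : Z → ℂ} (hθ : IsIrrCharacter Z θ) {χ : H → ℂ} (hχ : FullRam Z.subtype θ χ)
    (K : Subgroup H) [K.Normal] (hZK : Z ≤ K) (p : ℕ) [Fact p.Prime] (P : Sylow p (H ⧸ K))
    (hcyc : IsCyclic P) : ∃ M : Subgroup (H ⧸ K), M.IsComplement' (P : Subgroup (H ⧸ K)) := by
  obtain ⟨Q⟩ : Nonempty (Sylow p H) := inferInstance
  let P' : Sylow p (H ⧸ K) := Q.mapSurjective (QuotientGroup.mk'_surjective K)
  have hP' : IsCyclic P' := isCyclic_of_surjective (Sylow.equiv P P') (Sylow.equiv P P').surjective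
  have hmem : ∀ x : (Z ⊔ (Q : Subgroup H) : Subgroup H),
      (QuotientGroup.mk' K).comp (Z ⊔ (Q : Subgroup H)).subtype x ∈ (P' : Subgroup (H ⧸ K)) := by
    intro x
    obtain ⟨z, hz, q, hq, hx⟩ := mem_sup_of_normal_left.1 x.2
    rw [Sylow.coe_mapSurjective]
    refine ⟨q, hq, ?_⟩
    show ((q : H) : H ⧸ K) = ((x : H) : H ⧸ K)
    rw [← hx, QuotientGroup.mk_mul, (QuotientGroup.eq_one_iff z).2 (hZK hz), one_mul]
  let c : (Z ⊔ (Q : Subgroup H) : Subgroup H) →* P' :=
    ((QuotientGroup.mk' K).comp (Z ⊔ (Q : Subgroup H)).subtype).codRestrict _ hmem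
  have hcs : Function.Surjective c := by
    rintro ⟨y, hy⟩
    rw [Sylow.coe_mapSurjective] at hy
    obtain ⟨q, hq, rfl⟩ := hy
    exact ⟨⟨q, mem_sup_right hq⟩, rfl⟩
  have hc : ∀ x : (Z ⊔ (Q : Subgroup H) : Subgroup H), c x = 1 ↔
      (x : H) ∈ (Z ⊔ (Q : Subgroup H)) ⊓ K := by
    intro x
    rw [mem_inf]
    have h1 : c x = 1 ↔ ((x : H) : H ⧸ K) = 1 := by
      rw [← Subtype.coe_inj]
      rfl
    rw [h1, QuotientGroup.eq_one_iff]
    exact ⟨fun h => ⟨x.2, h⟩, fun h => h.2⟩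
  obtain ⟨XP, hXP⟩ := exists_fullRam_sylow hθ hχ Q
  have h1 := card_eq_relIndex_of_cyclic hθ (inv_of_overMul hχ.toOverMul)
    (le_sup_left : Z ≤ Z ⊔ (Q : Subgroup H)) (le_inf le_sup_left hZK) inf_le_left
    (le_normalizer_inf K _) hXP c hc
  obtain ⟨U, hU⟩ := exists_index hθ hχ K hZK Q
  rw [h1] at hU
  have h2 : ((Z ⊔ (Q : Subgroup H)) ⊓ K).relIndex (Z ⊔ (Q : Subgroup H)) = Nat.card P := by
    rw [Nat.card_congr (Sylow.equiv P P').toEquiv]
    have h3 : c.ker = ((Z ⊔ (Q : Subgroup H)) ⊓ K).subgroupOf (Z ⊔ (Q : Subgroup H)) := by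
      ext x
      rw [MonoidHom.mem_ker]
      exact hc x
    show (((Z ⊔ (Q : Subgroup H)) ⊓ K).subgroupOf (Z ⊔ (Q : Subgroup H))).index = _
    rw [← h3, index_ker, MonoidHom.range_eq_top.2 hcs, card_top]
  rw [h2] at hU
  have h3 : Nat.card U * Nat.card P = Nat.card (H ⧸ K) := by
    rw [← hU]; exact U.card_mul_index
  refine ⟨U, isComplement'_of_coprime h3 ?_⟩
  have h4 : Nat.card U = (P : Subgroup (H ⧸ K)).index := by
    apply Nat.eq_of_mul_eq_mul_right (Nat.card_pos (α := P))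
    rw [h3, mul_comm]
    exact (card_mul_index (P : Subgroup (H ⧸ K))).symm
  rw [h4]
  exact P.card_coprime_index.symm

end Cfsg.Agent.H622.Cyc
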