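import Mathlib
import Cfsg.Agent.H622.Cyc
import Cfsg.Agent.CharDeep.TripleCover
import Cfsg.Agent.CharactersDeep.CosetAverage
import Cfsg.Agent.CharactersDeep.InvRep
import Cfsg.Agent.Blocks.Deflate
set_option linter.all false

/-!
# Reduction of fully ramified characters to groups of central type

* `exists_cover`: a central cover `Δ` of `H` containing a copy of `Z` to whose elements the
  invariant character `θ` extends.
* `exists_central`: if `H` is fully ramified over `Z`, then `H ⧸ Z` is a quotient of a finite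
  group `Γ` by a central subgroup, and `Γ` has an irreducible character `X` with
  `X 1 ^ 2 = |H ⧸ Z|`.
-/

set_option autoImplicit false
open scoped ComplexConjugate
open Cfsg

namespace Cfsg.Agent.H622.Central

open Cfsg.Agent.Characters.Core Subgroup Cfsg.Agent.H622.FR Cfsg.Agent.H622.Star
open Representation Module
open Cfsg.Agent.CharDeep.ProjExt Cfsg.Agent.CharDeep.TripleCover

universe u

variable {H : Type u} [Group H]

/-- **Covers of character triples**. -/
theorem exists_cover [Finite H] (Z : Subgroup H) [Z.Normal] {θ : Z → ℂ}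
    (hθ : IsIrrCharacter Z θ) (hinv : Inv θ) :
    ∃ (Δ : Type u) (_ : Group Δ) (_ : Finite Δ) (p : Δ →* H) (s : Z →* Δ) (Θ : Δ → ℂ),
      Function.Surjective p ∧ p.ker ≤ center Δ ∧ (∀ z, p (s z) = z) ∧
      (∀ d z, d * s z * d⁻¹ = s (MulAut.conjNormal (p d) z)) ∧ IsIrrCharacter Δ Θ ∧
      (∀ z, Θ (s z) = θ z) ∧ ∀ k ∈ p.ker, ∃ c : ℂ, ∀ d, Θ (k * d) = c * Θ d := by
  obtain ⟨n, ρ, hρ, rfl⟩ := hθ
  obtain ⟨Δ, hfin, hint, hsurj, hsec, hker⟩ := exists_finite_cover ρ hρ hinv
  let s : Z →* Δ := (sec ρ).codRestrict Δ hsec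
  have hcomp : ((coverRep Δ).comp s : Representation ℂ Z (Fin n → ℂ)) = ρ := by
    ext1 z
    rfl
  refine ⟨Δ, inferInstance, hfin, proj Δ, s, (coverRep Δ).character, hsurj, hker,
    fun z => rfl, ?_, ⟨n, coverRep Δ, ?_, rfl⟩, ?_, ?_⟩
  · intro d z
    apply Subtype.ext
    exact conj_sec ρ d.1 (hint d.2) z
  · apply CharactersDeep.InvRep.isIrreducible_of_comp s
    rw [hcomp]
    exact hρ
  · intro z
    have h1 : (coverRep Δ).character (s z) =
        Representation.character ((coverRep Δ).comp s : Representation ℂ Z (Fin n → ℂ)) z := rfl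
    rw [h1, hcomp]
  · intro k hk
    obtain ⟨c, hc⟩ := exists_scalar_of_fst_eq_one ρ hρ k.1 (hint k.2) hk
    refine ⟨c, fun d => ?_⟩
    show LinearMap.trace ℂ _ (coverRep Δ (k * d)) = c * LinearMap.trace ℂ _ (coverRep Δ d)
    rw [map_mul, coverRep_apply Δ k, hc, smul_mul_assoc, one_mul, map_smul, smul_eq_mul]

/-- **Central reduction**. -/
theorem exists_central [Finite H] (Z : Subgroup H) [Z.Normal] {θ : Z → ℂ}
    (hθ : IsIrrCharacter Z θ) {χ : H → ℂ} (hχ : FullRam Z.subtype θ χ) :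
    ∃ (Γ : Type u) (_ : Group Γ) (_ : Finite Γ) (π : Γ →* H ⧸ Z) (X : Γ → ℂ),
      Function.Surjective π ∧ π.ker ≤ center Γ ∧ IsIrrCharacter Γ X ∧
      X 1 ^ 2 = (Nat.card (H ⧸ Z) : ℂ) := by
  classical
  obtain ⟨Δ, hg, hfin, p, s, Θ, hp, hker, hps, hconj, hΘ, hΘs, -⟩ :=
    exists_cover Z hθ (inv_of_overMul hχ.toOverMul)
  have hsinj : Function.Injective s := by
    intro a b hab
    have := congrArg p hab
    rw [hps, hps] at this
    exact Subtype.ext this
  let N : Subgroup Δ := s.range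
  have hN : N.Normal := by
    refine ⟨?_⟩
    rintro _ ⟨z, rfl⟩ d
    exact ⟨MulAut.conjNormal (p d) z, (hconj d z).symm⟩
  have := Fintype.ofFinite Δ
  have := Fintype.ofFinite N
  let e : Z ≃* N := MonoidHom.ofInjective hsinj
  have hes : ∀ y : N, s (e.symm y) = y := by
    intro y
    have : ((e (e.symm y) : N) : Δ) = s (e.symm y) := rfl
    rw [MulEquiv.apply_symm_apply] at this
    exact this.symm
  have hΘN : (fun n : N => Θ n) = θ ∘ e.symm := by
    funext y
    simp only [Function.comp]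
    rw [← hΘs, hes]
  have hΘNirr : IsIrrCharacter N (fun n : N => Θ n) := by
    rw [hΘN]
    exact isIrr_comp (e.symm : N →* Z) e.symm.surjective hθ
  obtain ⟨x, hx0, hx⟩ := hχ.exists_deg hθ
  have hχp : IsIrrCharacter Δ (χ ∘ p) := isIrr_comp p hp hχ.irr
  have hχN : (fun n : N => (χ ∘ p) n) = (x : ℂ) • (fun n : N => Θ n) := by
    funext y
    have h1 : (χ ∘ p) y = x * θ (e.symm y) := by
      rw [← hχ.apply hθ hx]
      simp only [Function.comp]
      congr 1
      rw [← hes y, hps]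
      rfl
    rw [h1]
    simp only [Pi.smul_apply, smul_eq_mul]
    rw [← hes y, hΘs]
  obtain ⟨η, hη, hηN, hmul⟩ := CharactersDeep.CosetAverage.exists_irr_mul N Θ hΘ hΘNirr (χ ∘ p) hχp
    (by
      rw [hχN, classInner_smul_left, classInner_irr_self hΘNirr, mul_one]
      exact_mod_cast hx0.ne')
  have hη1 : ∀ n : N, η n = η 1 := by
    intro n
    have := hηN n 1
    rwa [mul_one] at this
  obtain ⟨X, hX⟩ := Blocks.Deflate.exists_deflation N η hη (by
    rw [Finset.sum_congr rfl fun n _ => hη1 n, Finset.sum_const, nsmul_eq_mul]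
    exact mul_ne_zero (Nat.cast_ne_zero.2 (Finset.card_ne_zero_of_mem (Finset.mem_univ (1 : N))))
      (isIrr_apply_one_ne_zero hη))
  have hle : N ≤ Z.comap p := by
    rintro _ ⟨z, rfl⟩
    rw [mem_comap, hps]
    exact z.2
  refine ⟨Δ ⧸ N, inferInstance, inferInstance, QuotientGroup.map N Z p hle, X, ?_, ?_, X.2, ?_⟩
  · intro y
    obtain ⟨h, rfl⟩ := QuotientGroup.mk_surjective y
    obtain ⟨d, rfl⟩ := hp h
    exact ⟨(d : Δ ⧸ N), rfl⟩
  · intro y hy
    obtain ⟨d, rfl⟩ := QuotientGroup.mk_surjective y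
    have hd : p d ∈ Z := (QuotientGroup.eq_one_iff _).1 hy
    have hk : d * (s ⟨p d, hd⟩)⁻¹ ∈ p.ker := by
      rw [MonoidHom.mem_ker, map_mul, map_inv, hps, mul_inv_cancel]
    have hc := mem_center_iff.1 (hker hk)
    have heq : ((d : Δ) : Δ ⧸ N) = ((d * (s ⟨p d, hd⟩)⁻¹ : Δ) : Δ ⧸ N) := by
      rw [QuotientGroup.eq]
      refine ⟨(⟨p d, hd⟩ : Z)⁻¹, ?_⟩
      rw [map_inv]; group
    rw [heq, mem_center_iff]
    intro g
    obtain ⟨g, rfl⟩ := QuotientGroup.mk_surjective g
    rw [← QuotientGroup.mk_mul, ← QuotientGroup.mk_mul, hc g]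
  · have h1 : (X : Δ ⧸ N → ℂ) 1 = η 1 := by
      have := congrFun hX 1
      exact this.symm
    have h2 : χ 1 = Θ 1 * η 1 := by
      have := congrFun hmul 1
      simp only [Function.comp, map_one, Pi.mul_apply] at this
      exact this
    have h3 : Θ 1 = θ 1 := by
      have := hΘs 1
      rwa [map_one] at this
    have h4 : η 1 = x := by
      rw [hx, h3, mul_comm] at h2
      exact (mul_left_cancel₀ (isIrr_apply_one_ne_zero hθ) h2).symm
    have h5 := hχ.sq_eq hθ hx
    have h6 : x ^ 2 = Nat.card (H ⧸ Z) := by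
      have h7 : Nat.card Z * Nat.card (H ⧸ Z) = Nat.card H := Z.card_mul_index
      apply Nat.eq_of_mul_eq_mul_left (Nat.card_pos (α := Z))
      rw [h7, ← h5]; ring
    rw [h1, h4, ← h6]
    push_cast
    ring

end Cfsg.Agent.H622.Central
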